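import Mathlib
import Cfsg.Agent.SnCh.Alt
import Cfsg.Agent.GT.PGroupChain

/-!
# Irreducible characters of degree `p` of subgroups of wreath products
-/

set_option autoImplicit false

namespace Cfsg.Agent.SnCh

open Finset Equiv Cfsg.Agent.Ch Cfsg.Agent.Sym

variable {G J α : Type*} [Group G] {p : ℕ} [Fact p.Prime]

theorem exists_irr_of_cocycle [Finite G] [Finite J] (hG : IsPGroup p G) (t : G →* Perm J)
    (c : G → J → ZMod p) (hc : ∀ g h, c (g * h) = c g ∘ t h + c h) {i : J} {g k : G}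
    (hg : t g i ≠ i) (hk : t k = 1) (h1 : c k i ≠ 0) (h2 : ∀ g, t g i ≠ i → c k (t g i) = 0) :
    ∃ φ : IrrCharacter G, charDegree (φ : G → ℂ) = p := by
  classical
  have hp : p.Prime := Fact.out
  have := Fintype.ofFinite G
  have := Fintype.ofFinite J
  obtain ⟨K, hK, hi⟩ := GT.PG.exists_index_eq_prime_of_ne_top hG
    (H := (MulAction.stabilizer (Perm J) i).comap t) fun e => hg (e.ge (Subgroup.mem_top g))
  have : K.Normal := GT.PG.normal_of_index_prime hG hi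
  let O : Finset J := {j | ∃ h ∈ K, t h i = j}
  have c1 : c 1 = 0 := by simpa using hc 1 1
  let lam : K →* ℂ :=
    { toFun a := ZMod.stdAddChar (∑ j ∈ O, c a j)
      map_one' := by simp [c1]
      map_mul' a b := by
        rw [← AddChar.map_add_eq_mul, Subgroup.coe_mul, hc]
        simp only [Pi.add_apply, sum_add_distrib, Function.comp_apply]
        congr 2
        refine sum_equiv (t b) (fun j => ?_) fun _ _ => rfl
        simp only [O, mem_filter, mem_univ, true_and]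
        exact ⟨fun ⟨h, hh, e⟩ => ⟨_, mul_mem b.2 hh, by simp [e]⟩,
          fun ⟨h, hh, e⟩ => ⟨_, mul_mem (inv_mem b.2) hh, by simp [e]⟩⟩ }
  have hl := isIrrCharacter_monoidHom lam
  refine ⟨⟨_, isIrrCharacter_indFun_of_inertia_le hl fun g hg => by_contra fun hn => h1 ?_⟩,
    (Deg.charDegree_indFun K hl.isCharacter).trans (by simp [hi, charDegree])⟩
  have hkK : k ∈ K := hK (by simp [hk])
  have h3 := mem_inertia.1 (inv_mem hg) ⟨k, hkK⟩
  have h4 : c (g⁻¹ * k * g) = c k ∘ t g := by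
    have := hc g⁻¹ g
    rw [inv_mul_cancel, c1] at this
    rw [mul_assoc, hc, hc, map_mul, hk, one_mul, add_left_comm, ← this, add_zero]
  simp only [inv_inv, lam, MonoidHom.coe_mk, OneHom.coe_mk, h4,
    ZMod.injective_stdAddChar.eq_iff] at h3
  rw [sum_eq_zero, sum_eq_single_of_mem i (mem_filter.2 ⟨mem_univ _, 1, one_mem _, by simp⟩)] at h3
  · exact h3.symm
  · intro j hj e
    obtain ⟨h, -, rfl⟩ := (mem_filter.1 hj).2
    exact h2 h e
  · intro j hj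
    obtain ⟨h, hh, rfl⟩ := (mem_filter.1 hj).2
    simpa using h2 (g * h) fun e => hn (by simpa using mul_mem (hK e) (inv_mem hh))

theorem exists_top {A : Type*} [AddGroup A] {ι : J × A ↪ α} (f : G →* Perm α)
    (hf : f.range ≤ wr ι ⊤) : ∃ (t : G →* Perm J) (c : G → J → A),
      (∀ g h, c (g * h) = c g ∘ t h + c h) ∧ ∀ g, f g = wrEmb ι (t g) (c g) := by
  choose t _ c h using fun g => mem_wr.1 (hf ⟨g, rfl⟩)
  have h1 := fun a b => wrEmb_inj ι ((h (a * b)).symm.trans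
    (by rw [map_mul, h, h, wrEmb_mul]) : wrEmb ι _ _ = wrEmb ι (t a * t b) (c a ∘ t b + c b))
  exact ⟨MonoidHom.mk' t fun a b => (h1 a b).1, c, fun a b => (h1 a b).2, h⟩

theorem exists_irr_of_wr [Finite G] [Finite J] (hG : IsPGroup p G) {ι : J × ZMod p ↪ α}
    (f : G →* Perm α) {Q : Subgroup (Perm J)} (hf : f.range ≤ wr ι Q) {i : J} {σ : Perm J}
    {u v : J → ZMod p} (hσ : σ i ≠ i) (hu : wrEmb ι σ u ∈ f.range) (hv : wrEmb ι 1 v ∈ f.range)
    (h1 : v i ≠ 0) (h2 : ∀ τ ∈ Q, τ i ≠ i → v (τ i) = 0) :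
    ∃ φ : IrrCharacter G, charDegree (φ : G → ℂ) = p := by
  obtain ⟨t, c, hc, h⟩ := exists_top f (hf.trans (wr_mono le_top))
  obtain ⟨g, hg⟩ := hu
  obtain ⟨k, hk⟩ := hv
  obtain ⟨rfl, -⟩ := wrEmb_inj ι ((h g).symm.trans hg)
  obtain ⟨h3, rfl⟩ := wrEmb_inj ι ((h k).symm.trans hk)
  exact exists_irr_of_cocycle hG t c hc hσ h3 h1 fun a =>
    h2 _ (wrEmb_mem_wr.1 (h a ▸ hf ⟨a, rfl⟩))

theorem exists_irr_of_eq_wr [Finite G] [Finite J] (hG : IsPGroup p G) {ι : J × ZMod p ↪ α}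
    (f : G →* Perm α) {Q : Subgroup (Perm J)} (hf : f.range = wr ι Q) (hQ : Q ≠ ⊥) :
    ∃ φ : IrrCharacter G, charDegree (φ : G → ℂ) = p := by
  classical
  obtain ⟨⟨σ, h1⟩, h2⟩ := Subgroup.ne_bot_iff_exists_ne_one.1 hQ
  obtain ⟨i, h3⟩ : ∃ i, σ i ≠ i := by
    by_contra! e
    exact h2 (Subtype.ext (Perm.ext e))
  exact exists_irr_of_wr hG f hf.le (u := 0) (v := Pi.single i 1) h3 (hf ▸ wrEmb_mem_wr.2 h1)
    (hf ▸ wrEmb_mem_wr.2 (one_mem _)) (by simp) fun τ _ h => by simp [h]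

theorem sylow_ne_bot [Fintype J] [DecidableEq J] (h : p ≤ Fintype.card J) (Q : Sylow p (Perm J)) :
    Q.1 ≠ ⊥ :=
  Q.ne_bot_of_dvd_card (by
    rwa [Nat.card_perm, Nat.card_eq_fintype_card, (Fact.out : p.Prime).dvd_factorial])

theorem exists_irr_of_eq_inf [Finite G] [Fintype α] [DecidableEq α] {w : ℕ} (hw : 3 ≤ w)
    (hG : IsPGroup 2 G) {ι : Fin w × ZMod 2 ↪ α} (f : G →* Perm α) (Q : Sylow 2 (Perm (Fin w)))
    (hf : f.range = wr ι Q ⊓ alternatingGroup α) :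
    ∃ φ : IrrCharacter G, charDegree (φ : G → ℂ) = 2 := by
  have h0 : ∀ σ ∈ Q.1, wrEmb ι σ 0 ∈ f.range := fun σ hσ =>
    hf ▸ ⟨wrEmb_mem_wr.2 hσ, wrTop_mem_alternatingGroup ι σ⟩
  rcases hw.eq_or_lt with rfl | hw
  · obtain ⟨⟨σ, h1⟩, h2⟩ := Subgroup.ne_bot_iff_exists_ne_one.1 (sylow_ne_bot (by simp) Q)
    obtain ⟨i, h3⟩ : ∃ i, σ i ≠ i := by
      by_contra! e
      exact h2 (Subtype.ext (Perm.ext e))
    have h4 : Nat.card Q.1 = 2 := by
      rw [Q.card_eq_multiplicity, Nat.card_perm]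
      simpa using (by decide +kernel : 2 ^ (Nat.factorial 3).factorization 2 = 2)
    obtain ⟨j, h5, h6⟩ := (by decide : ∀ i k : Fin 3, ∃ j, j ≠ i ∧ j ≠ k) i (σ i)
    refine exists_irr_of_wr hG f (hf.le.trans inf_le_left) h3 (h0 σ h1)
      (v := Pi.single i 1 + Pi.single j 1) (hf.ge ⟨wrEmb_mem_wr.2 (one_mem _), ?_⟩)
      (by simp [h5.symm]) fun τ hτ h => ?_
    · have := wrEmb_mul ι 1 1 (Pi.single i 1) (Pi.single j 1)
      simp only [mul_one, Perm.coe_one, Function.comp_id, ← swap_eq_wrEmb] at this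
      simp [Perm.mem_alternatingGroup, ← this]
    · obtain ⟨x, -, hx⟩ := (Nat.card_eq_two_iff' (1 : Q.1)).1 h4
      obtain rfl : τ = σ := congrArg Subtype.val
        ((hx ⟨τ, hτ⟩ fun e => h (by simp [show τ = 1 from congrArg Subtype.val e])).trans
          (hx _ h2).symm)
      simp [h, h6.symm]
  obtain ⟨t, c, -, h⟩ := exists_top f (hf.le.trans (inf_le_left.trans (wr_mono le_top)))
  obtain ⟨ι', h1⟩ := exists_eq_wr (β := Fin (w / 2)) (by simp) Q default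
  refine exists_irr_of_eq_wr hG t (Eq.trans (le_antisymm ?_ fun σ hσ => ?_) h1)
    (sylow_ne_bot (by simp; omega) _)
  · rintro _ ⟨g, rfl⟩
    exact wrEmb_mem_wr.1 (h g ▸ (hf.le ⟨g, rfl⟩).1)
  · obtain ⟨g, hg⟩ := h0 σ hσ
    exact ⟨g, (wrEmb_inj ι ((h g).symm.trans hg)).1⟩

end Cfsg.Agent.SnCh
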