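import Mathlib
import Cfsg.Agent.SnCh.Hook
import Cfsg.Agent.Sym.Order

/-!
# Sliding the top beads of a core
-/

set_option autoImplicit false

namespace Cfsg.Agent.SnCh

open Finset

variable {ι : Type*} {p : ℕ} {κ : ι → ℤ} {u : ι → ℕ}

/-- Slide the bead `i` up its runner by `u i` places. -/
def sh (p : ℕ) (κ : ι → ℤ) (u : ι → ℕ) : ι → ℤ := fun i => κ i + p * u i

/-- The order of the beads on each runner is preserved. -/
def Mon (p : ℕ) (κ : ι → ℤ) (u : ι → ℕ) : Prop :=
  ∀ i j, κ i % p = κ j % p → κ i < κ j → u i ≤ u j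

/-- Only top beads move. -/
def Top (p : ℕ) (κ : ι → ℤ) (u : ι → ℕ) : Prop :=
  ∀ i j, κ i % p = κ j % p → κ i < κ j → u i = 0

theorem Top.mon (h : Top p κ u) : Mon p κ u := fun i j h1 h2 => by simp [h i j h1 h2]

@[simp] theorem sh_emod (i : ι) : sh p κ u i % p = κ i % p := by simp [sh]

theorem sh_div (hp : 0 < p) (i : ι) : sh p κ u i / p = κ i / p + u i :=
  Int.add_mul_ediv_left _ _ (by positivity)

theorem Mon.lt (h : Mon p κ u) {i j : ι} (e : κ i % p = κ j % p) (h1 : κ i < κ j) :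
    sh p κ u i < sh p κ u j :=
  add_lt_add_of_lt_of_le h1 (by gcongr; exact h i j e h1)

theorem Mon.lt_iff (h : Mon p κ u) (hκ : Val κ) {i j : ι} (e : κ i % p = κ j % p) :
    sh p κ u i < sh p κ u j ↔ κ i < κ j := by
  refine ⟨fun h1 => ?_, h.lt e⟩
  rcases lt_trichotomy (κ i) (κ j) with h2 | h2 | h2
  · exact h2
  · simp [hκ.1 h2] at h1
  · exact (h1.not_gt (h.lt e.symm h2)).elim

theorem Mon.val (h : Mon p κ u) (hκ : Val κ) : Val (sh p κ u) := by
  refine ⟨fun i j e => hκ.1 ?_, fun i => add_nonneg (hκ.2 i) (by positivity)⟩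
  have h1 : κ i % p = κ j % p := by rw [← sh_emod (u := u), e, sh_emod]
  exact le_antisymm (not_lt.1 fun h2 => (h.lt h1.symm h2).ne' e)
    (not_lt.1 fun h2 => (h.lt h1 h2).ne e)

variable [Fintype ι]

theorem Mon.below (h : Mon p κ u) (hκ : Val κ) (i : ι) :
    univ.filter (fun j => sh p κ u j % p = sh p κ u i % p ∧ sh p κ u j < sh p κ u i) =
      univ.filter fun j => κ j % p = κ i % p ∧ κ j < κ i :=
  filter_congr fun _ _ => by simpa using fun e => h.lt_iff hκ e

theorem Mon.core (h : Mon p κ u) (hκ : Val κ) : core p (sh p κ u) = core p κ := by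
  ext i
  simp only [SnCh.core, rk, h.below hκ]
  simp

theorem cnt_sh : cnt p (sh p κ u) = cnt p κ := by ext; simp [cnt]

theorem sum_sh : ∑ i, sh p κ u i = ∑ i, κ i + p * (∑ i, u i : ℕ) := by
  simp [sh, sum_add_distrib, mul_sum]

theorem Mon.wt (hp : 0 < p) (h : Mon p κ u) (hκ : Val κ) (h0 : wt p κ = 0) :
    wt p (sh p κ u) = (∑ i, u i : ℕ) :=
  wt_eq hp hκ (h.val hκ) cnt_sh (by rw [sum_sh, hκ.core_eq hp h0])

theorem prod_Ico_add_sub (r : ℤ) (hr : 0 ≤ r) (a : ℕ) :
    ∏ z ∈ Ico (0 : ℤ) (r + a), ((r + a - z : ℤ) : ℚ) =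
      a.factorial * ∏ z ∈ Ico (0 : ℤ) r, ((r + a - z : ℤ) : ℚ) := by
  have := prod_Ico_add (fun z => ((r + a - z : ℤ) : ℚ)) 0 a r
  rw [zero_add, add_comm (a : ℤ)] at this
  rw [← Ico_union_Ico_eq_Ico hr (by omega), prod_union (Ico_disjoint_Ico_consecutive _ _ _),
    mul_comm, ← prod_Ico_sub, ← this]
  simp

theorem Mon.prod_gaps (hp : 0 < p) (h : Mon p κ u) (hκ : Val κ) (h0 : SnCh.wt p κ = 0) (i : ι) :
    ((∏ y ∈ gaps p (sh p κ u) i, (sh p κ u i / p - y / p).toNat : ℕ) : ℚ) *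
      ∏ j with (κ j % p = κ i % p ∧ κ j < κ i) ∧ u j ≠ 0,
        ((κ i / p + u i - (κ j / p + u j) : ℤ) : ℚ) =
    (u i).factorial * ∏ j with (κ j % p = κ i % p ∧ κ j < κ i) ∧ u j ≠ 0,
      ((κ i / p + u i - κ j / p : ℤ) : ℚ) := by
  have h1 := prod_gaps_mul hp (h.val hκ) i fun z => ((κ i / p + u i - z : ℤ) : ℚ)
  have h2 := prod_gaps_mul hp hκ i fun z => ((κ i / p + u i - z : ℤ) : ℚ)
  have h3 : gaps p κ i = ∅ := by
    have h4 := card_gaps hp hκ i
    rw [← core_div hp, hκ.core_eq hp h0, sub_self] at h4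
    simpa using h4
  rw [h3, prod_empty, one_mul] at h2
  rw [h.below hκ, sh_div hp, prod_Ico_add_sub _ (Int.ediv_nonneg (hκ.2 i) (by positivity)), ← h2,
    ← prod_filter_mul_prod_filter_not _ (u · ≠ 0),
    ← prod_filter_mul_prod_filter_not _ (u · ≠ 0) (f := fun j => ((_ - κ j / p : ℤ) : ℚ)),
    ← mul_assoc, ← mul_assoc, prod_congr (s₂ := filter (¬ u · ≠ 0) _) rfl
      (g := fun j => ((κ i / p + u i - κ j / p : ℤ) : ℚ)) fun j hj => by
        simp [sh_div hp, not_not.1 (mem_filter.1 hj).2], filter_filter] at h1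
  convert mul_right_cancel₀ (prod_ne_zero_iff.2 fun j hj => ?_) h1 using 2
  · rw [Nat.cast_prod]
    refine prod_congr rfl fun y hy => ?_
    rw [← sh_div hp, ← Int.cast_natCast, Int.toNat_of_nonneg (sub_div_pos hp hy).le]
  · simp [sh_div hp]
  · have h4 := (mem_filter.1 (mem_filter.1 hj).1).2
    have := (div_lt_div_of_emod hp h4.1).2 h4.2
    exact Int.cast_ne_zero.2 (by omega)

theorem Mon.prod_gaps_eq (hp : 0 < p) (h : Mon p κ u) (hκ : Val κ) (h0 : SnCh.wt p κ = 0) {i : ι}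
    (hi : ∀ j, κ j % p = κ i % p → κ j < κ i → u j = 0) :
    ∏ y ∈ gaps p (sh p κ u) i, (sh p κ u i / p - y / p).toNat = (u i).factorial := by
  have h1 := h.prod_gaps hp hκ h0 i
  rw [filter_false_of_mem fun j _ e => e.2 (hi j e.1.1 e.1.2), prod_empty, prod_empty, mul_one,
    mul_one] at h1
  exact_mod_cast h1

theorem Top.Hk (hp : 0 < p) (h : Top p κ u) (hκ : Val κ) (h0 : wt p κ = 0) :
    Hk p (sh p κ u) = ∏ i, (u i).factorial :=
  prod_congr rfl fun i _ => h.mon.prod_gaps_eq hp hκ h0 fun j => h j i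

theorem exists_top_two (hp : 0 < p) (hκ : Val κ) (h0 : wt p κ = 0) {r : ℕ} (hr : r < p)
    (h : ∃ i, κ i = r + p) : ∃ i j, κ i % p = r ∧ κ j % p = r ∧ κ i / p = κ j / p + 1 ∧
      κ j < κ i ∧ ∀ k, κ k % p = r → k = i ∨ k = j ∨ κ k < κ j := by
  have h1 := ((mem_range_core hp hκ.1).1 ((hκ.core_eq hp h0).symm ▸ h)).2
  have h2 : ∀ i, κ i / p = rk p κ i := fun i => by rw [← core_div hp, hκ.core_eq hp h0]
  rw [Int.add_emod_right, Int.emod_eq_of_lt (by omega) (by omega),
    Int.add_ediv_of_dvd_right dvd_rfl, Int.ediv_self (by omega),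
    Int.ediv_eq_zero_of_lt (by omega) (by omega)] at h1
  obtain ⟨i, hi, h3⟩ := exists_rk hκ.1 (show cnt p κ r - 1 < cnt p κ r by omega)
  obtain ⟨j, hj, h4⟩ := exists_rk hκ.1 (show cnt p κ r - 2 < cnt p κ r by omega)
  refine ⟨i, j, hi, hj, by rw [h2, h2]; omega, (rk_lt_rk_iff (hj.trans hi.symm)).1 (by omega),
    fun k hk => ?_⟩
  have h5 := rk_lt_cnt (p := p) κ k
  rw [hk] at h5
  by_cases e : rk p κ k = rk p κ i
  · exact .inl (rk_inj hκ.1 (hk.trans hi.symm) e)
  by_cases e' : rk p κ k = rk p κ j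
  · exact .inr (.inl (rk_inj hκ.1 (hk.trans hj.symm) e'))
  · exact .inr (.inr ((rk_lt_rk_iff (hk.trans hj.symm)).1 (by omega)))

theorem exists_add_factorization (hp : p.Prime) {w : ℕ} (hw : p ≤ w)
    (h : w % p + 1 ≠ p ∨ p ∣ w / p) : ∃ a b : ℕ, a + b = w ∧
      a.factorial.factorization p + b.factorial.factorization p + 1 =
        w.factorial.factorization p := by
  induction w using Nat.strong_induction_on with | _ w ih => ?_
  have h1 := Nat.div_add_mod w p
  have h2 := Nat.mod_lt w hp.pos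
  have h3 := Nat.div_pos hw hp.pos
  rw [← h1, Sym.factorization_factorial_mul_add hp _ h2]
  by_cases e : p ∣ w / p
  · obtain ⟨a, b, h4, h5⟩ := ih (w / p) (Nat.div_lt_self (by omega) hp.one_lt)
      (Nat.le_of_dvd h3 e) (.inl (by rw [Nat.mod_eq_zero_of_dvd e]; exact hp.one_lt.ne))
    refine ⟨p * a + w % p, p * b + 0, by rw [← h4]; ring, ?_⟩
    rw [Sym.factorization_factorial_mul_add hp _ h2, Sym.factorization_factorial_mul_add hp _ hp.pos]
    omega
  obtain ⟨m, hm⟩ := Nat.exists_eq_add_of_lt h3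
  replace h := h.resolve_right e
  rw [hm, zero_add] at e ⊢
  refine ⟨p * m + (p - 1), p * 0 + (w % p + 1), by rw [mul_add]; omega, ?_⟩
  rw [Sym.factorization_factorial_mul_add hp _ (by omega),
    Sym.factorization_factorial_mul_add hp _ (by omega), Nat.factorial_succ,
    Nat.factorization_mul (by omega) (Nat.factorial_ne_zero _), Finsupp.add_apply,
    Nat.factorization_eq_zero_of_not_dvd e]
  simp
  omega

variable [DecidableEq ι]

theorem Mon.pw_pos (hp : 0 < p) (h : Mon p κ u) (hκ : Val κ) (h0 : SnCh.wt p κ = 0) :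
    0 < pw (Multiset.replicate (∑ i, u i) p) (alt κ) (sh p κ u) := by
  have h1 := pw_alt_mul_Hk hp (h.val hκ) (h.wt hp hκ h0)
  rw [h.core hκ, hκ.core_eq hp h0] at h1
  exact (mul_pos_iff_of_pos_right (Nat.cast_pos.2 (Hk_pos hp _))).1 (h1.ge.trans_lt' (by positivity))

theorem Top.pw_cons_ne (hp : 0 < p) (h : Top p κ u) (hκ : Val κ) (h0 : wt p κ = 0) {w : ℕ}
    (hw : ∑ i, u i = w + 2) {i : ι} (hi : 2 ≤ u i) :
    pw ((2 * p) ::ₘ Multiset.replicate w p) (alt κ) (sh p κ u) ≠ 0 := by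
  have h1 : ∀ i, 2 ≤ u i →
      0 < pw (Multiset.replicate w p) (alt κ) (sh p κ u - ee i (2 * p : ℕ)) := fun i hi => by
    have h2 : Top p κ (u - Pi.single i 2) := fun a b h1 h2 => by simp [h a b h1 h2]
    convert h2.mon.pw_pos hp hκ h0
    · have h3 : ∑ j, u j = ∑ j, ((u - Pi.single i 2 : ι → ℕ) j + (Pi.single i 2 : ι → ℕ) j) :=
        sum_congr rfl fun j _ => by by_cases e : j = i <;> simp [e, hi]
      simp only [sum_add_distrib, sum_pi_single', mem_univ, if_true] at h3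
      omega
    · ext j
      by_cases e : j = i <;> simp [sh, e, hi]
      ring
  rw [pw_cons, U_apply]
  refine (sum_pos' (fun j _ => ?_) ⟨i, mem_univ _, h1 i hi⟩).ne'
  by_cases e : 2 ≤ u j
  · exact (h1 j e).le
  refine Eq.ge (by_contra fun h2 => ?_)
  have h3 := Sp.val (Sp.pw (alt_mem hκ.2) _) h2
  have h4 := h3.2 j
  have h5 := rk_lt_cnt (p := p) κ j
  have h6 : (sh p κ u - ee j (2 * p : ℕ)) j = κ j + p * (u j - 2) := by simp [sh]; ring
  have h7 : κ j / p = rk p κ j := by rw [← core_div hp, hκ.core_eq hp h0]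
  rw [h6] at h4
  obtain ⟨k, hk⟩ := (mem_range_core hp hκ.1 (x := κ j + p * (u j - 2))).2
    ⟨Int.ediv_nonneg h4 (by positivity), by
      rw [Int.add_mul_ediv_left _ _ (by positivity), Int.add_mul_emod_self_left]; omega⟩
  rw [hκ.core_eq hp h0] at hk
  have h8 : κ k < κ j := by rw [hk]; nlinarith [show (u j : ℤ) - 2 < 0 by omega]
  have h9 : k ≠ j := by rintro rfl; exact h8.false
  exact h9 (h3.1 (by rw [h6]; simp [sh, h9, h k j (by simp [hk]) h8, hk]))

theorem exists_height_one (hp : p.Prime) (hκ : Val κ) (h0 : wt p κ = 0)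
    (hf : ∀ x : ℤ, 0 ≤ x → x < 2 * p → ∃ i, κ i = x) {w : ℕ} (hw : p ≤ w) :
    ∃ u, Mon p κ u ∧ ∑ i, u i = w ∧
      (Hk p (sh p κ u)).factorization p + 1 = w.factorial.factorization p ∧ (p ∣ w → 3 ≤ w →
        pw ((2 * p) ::ₘ Multiset.replicate (w - 2) p) (alt κ) (sh p κ u) ≠ 0) := by
  have h2 := hp.two_le
  obtain ⟨i, j, hi, hj, h3, h4, h5⟩ := exists_top_two hp.pos hκ h0 hp.pos (hf _ (by omega) (by omega))
  obtain ⟨l, l', hl, -, -, h6, h7⟩ :=
    exists_top_two hp.pos hκ h0 hp.one_lt (hf _ (by omega) (by omega))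
  have il : i ≠ l := by rintro rfl; omega
  have jl : j ≠ l := by rintro rfl; omega
  have ji : j ≠ i := by rintro rfl; omega
  have ti : ∀ k, κ i % p = κ k % p → ¬ κ i < κ k := fun k e => by
    rcases h5 k (e ▸ hi) with rfl | rfl | e <;> omega
  have tl : ∀ k, κ l % p = κ k % p → ¬ κ l < κ k := fun k e => by
    rcases h7 k (e ▸ hl) with rfl | rfl | e <;> omega
  by_cases e : w % p + 1 ≠ p ∨ p ∣ w / p
  · obtain ⟨a, b, rfl, h8⟩ := exists_add_factorization hp hw e
    have h9 : Top p κ (Pi.single i a + Pi.single l b) := fun c d h1 h2 => by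
      have : c ≠ i := by rintro rfl; exact ti d h1 h2
      have : c ≠ l := by rintro rfl; exact tl d h1 h2
      simp [*]
    have hs : ∑ c, (Pi.single i a + Pi.single l b : ι → ℕ) c = a + b := by simp [sum_add_distrib]
    refine ⟨_, h9.mon, hs, ?_, fun _ _ => ?_⟩
    · rw [h9.Hk hp.pos hκ h0, Fintype.prod_eq_mul i l il fun c hc => by simp [hc]]
      simpa [il, il.symm, Nat.factorization_mul, Nat.factorial_ne_zero] using h8
    · by_cases h : 2 ≤ a
      · exact h9.pw_cons_ne hp.pos hκ h0 (by omega) (i := i) (by simpa [il])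
      · exact h9.pw_cons_ne hp.pos hκ h0 (by omega) (i := l) (by simp [il.symm]; omega)
  obtain ⟨e1, e2⟩ := not_or.1 e
  have h1 := Nat.div_add_mod w p
  have h8 := Nat.div_pos hw hp.pos
  have h10 := Nat.mul_pos hp.pos h8
  set u : ι → ℕ := Pi.single i (p * (w / p)) + Pi.single j 1 + Pi.single l (p - 2) with hu
  have ui : u i = p * (w / p) := by simp [hu, il, ji.symm]
  have uj : u j = 1 := by simp [hu, jl, ji]
  have ul : u l = p - 2 := by simp [hu, jl.symm, il.symm]
  have u0 : ∀ c, c ≠ i → c ≠ j → c ≠ l → u c = 0 := fun c _ _ _ => by simp [*]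
  have tj : ∀ c d, κ c % p = κ d % p → κ c < κ d → u c ≠ 0 → c = j ∧ d = i := fun c d h1 h2 h => by
    obtain rfl : c = j := by
      by_contra e
      exact h (u0 c (by rintro rfl; exact ti d h1 h2) e (by rintro rfl; exact tl d h1 h2))
    rcases h5 d (h1 ▸ hj) with rfl | rfl | e
    exacts [⟨rfl, rfl⟩, h2.false.elim, (h2.not_gt e).elim]
  have h9 : Mon p κ u := fun c d h1 h2 => by
    by_cases h : u c = 0
    · omega
    · rw [(tj c d h1 h2 h).2, (tj c d h1 h2 h).1]
      omega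
  refine ⟨u, h9, by simp [hu, sum_add_distrib]; omega, ?_, fun h => ?_⟩
  swap
  · rw [Nat.mod_eq_zero_of_dvd h] at e1
    omega
  have h11 := h9.prod_gaps hp.pos hκ h0 i
  rw [show filter _ univ = {j} from eq_singleton_iff_unique_mem.2
    ⟨mem_filter.2 ⟨mem_univ _, ⟨hj.trans hi.symm, h4⟩, by omega⟩, fun c hc => by
      have := (mem_filter.1 hc).2
      exact (tj c i this.1.1 this.1.2 this.2).1⟩, prod_singleton, prod_singleton, h3, ui, uj] at h11
  have h12 : Hk p (sh p κ u) * (p * (w / p)) =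
      (p * (w / p) + 1).factorial * (p * 0 + (p - 2)).factorial := by
    rw [Hk, ← mul_prod_erase _ _ (mem_univ i), prod_congr rfl fun c hc => h9.prod_gaps_eq hp.pos hκ h0
      fun d h1 h2 => by_contra fun h => ne_of_mem_erase hc (tj d c h1 h2 h).2,
      prod_eq_single_of_mem l (by simp [il.symm]) fun c hc h => by
        by_cases e : c = j
        · simp [e, uj]
        · simp [u0 c (ne_of_mem_erase hc) e h], ul, mul_right_comm, mul_zero, zero_add]
    congr 1
    rw [Nat.factorial_succ]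
    qify
    push_cast at h11 ⊢
    linear_combination h11
  replace h12 := congrArg (·.factorization p) h12
  rw [← h1, Sym.factorization_factorial_mul_add hp _ (by omega)]
  simp only [Nat.factorization_mul (Hk_pos hp.pos _).ne' h10.ne', Finsupp.add_apply,
    Nat.factorization_mul (Nat.factorial_ne_zero _) (Nat.factorial_ne_zero _),
    Sym.factorization_factorial_mul_add hp _ hp.one_lt,
    Sym.factorization_factorial_mul_add hp _ (show p - 2 < p by omega),
    Nat.factorization_mul hp.ne_zero h8.ne', hp.factorization_self,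
    Nat.factorization_eq_zero_of_not_dvd e2] at h12
  simpa using h12

end Cfsg.Agent.SnCh
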